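/-
`r`-adic valuations of `q^j - 1` and of the orders of linear groups, for primes `r` larger than the rank.
-/
import Mathlib

set_option autoImplicit false

namespace Cfsg.Agent.Lib.SylowLarge.Val

open Finset

variable {q r : ℕ} [hr : Fact r.Prime]

lemma dvd_pow_sub_one_iff (hq : 1 ≤ q) (j : ℕ) : r ∣ q ^ j - 1 ↔ orderOf (q : ZMod r) ∣ j := by
  rw [orderOf_dvd_iff_pow_eq_one, ← ZMod.natCast_eq_zero_iff]
  have h1 : 1 ≤ q ^ j := Nat.one_le_pow _ _ hq
  rw [Nat.cast_sub h1]
  simp [sub_eq_zero]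

lemma order_pos (hrq : ¬ r ∣ q) : 0 < orderOf (q : ZMod r) := by
  have h1 : (q : ZMod r) ≠ 0 := by
    rw [Ne, ZMod.natCast_eq_zero_iff]
    exact hrq
  have : Fact (1 < r) := ⟨hr.out.one_lt⟩
  have hu : IsUnit (q : ZMod r) := h1.isUnit
  exact orderOf_pos_iff.2 (hu.isOfFinOrder)

/-- Lifting the exponent. -/
lemma val_pow_sub_one (hq : 2 ≤ q) (hrq : ¬ r ∣ q) {j : ℕ} (hj : 1 ≤ j) (hjr : j < r) :
    padicValNat r (q ^ j - 1) =
      if orderOf (q : ZMod r) ∣ j then padicValNat r (q ^ orderOf (q : ZMod r) - 1) else 0 := by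
  set d := orderOf (q : ZMod r) with hd
  have hd0 : 0 < d := order_pos hrq
  split_ifs with hdj
  · obtain ⟨t, rfl⟩ := hdj
    have ht : t ≠ 0 := by
      rintro rfl
      simp at hj
    rcases hr.out.eq_two_or_odd' with h2 | hodd
    · have h3 : d * t = 1 := by omega
      have h4 : t = 1 := Nat.eq_one_of_mul_eq_one_left h3
      rw [h4, mul_one]
    · have h1 : 1 < q ^ d := Nat.one_lt_pow hd0.ne' (by omega)
      have h5 : r ∣ q ^ d - 1 := (dvd_pow_sub_one_iff (by omega) d).2 dvd_rfl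
      have h6 : ¬ r ∣ q ^ d := fun h => hrq (hr.out.dvd_of_dvd_pow h)
      have h7 := padicValNat.pow_sub_pow hodd h1 h5 h6 ht
      rw [one_pow] at h7
      rw [pow_mul, h7]
      have h8 : padicValNat r t = 0 := by
        apply padicValNat.eq_zero_of_not_dvd
        intro h9
        have h10 := Nat.le_of_dvd (Nat.pos_of_ne_zero ht) h9
        have h11 : t ≤ d * t := Nat.le_mul_of_pos_left _ hd0
        omega
      rw [h8, add_zero]
  · apply padicValNat.eq_zero_of_not_dvd
    rwa [dvd_pow_sub_one_iff (by omega)]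

/-- The valuation of `q^d - 1` is that of the `d`-th cyclotomic value. -/
lemma val_cyclotomic (hq : 2 ≤ q) (hrq : ¬ r ∣ q) :
    padicValNat r (q ^ orderOf (q : ZMod r) - 1) =
      padicValNat r ((Polynomial.cyclotomic (orderOf (q : ZMod r)) ℤ).eval (q : ℤ)).natAbs := by
  set d := orderOf (q : ZMod r) with hd
  have hd0 : 0 < d := order_pos hrq
  have hprod : ∀ e : ℕ, 0 < e → ∏ i ∈ e.divisors, (Polynomial.cyclotomic i ℤ).eval (q : ℤ) = (q : ℤ) ^ e - 1 := by
    intro e he
    have h1 := congrArg (Polynomial.eval (q : ℤ)) (Polynomial.prod_cyclotomic_eq_X_pow_sub_one he ℤ)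
    simpa [Polynomial.eval_prod] using h1
  have hdvd : ∀ e : ℕ, 0 < e → (r : ℤ) ∣ (Polynomial.cyclotomic e ℤ).eval (q : ℤ) → d ∣ e := by
    intro e he h
    have h1 := hprod e he
    have h2 : (r : ℤ) ∣ (q : ℤ) ^ e - 1 := by
      rw [← h1]
      exact h.trans (Finset.dvd_prod_of_mem _ (Nat.mem_divisors_self e he.ne'))
    rw [← dvd_pow_sub_one_iff (by omega)]
    have h3 : ((q ^ e - 1 : ℕ) : ℤ) = (q : ℤ) ^ e - 1 := by
      rw [Nat.cast_sub (Nat.one_le_pow _ _ (by omega))]
      simp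
    rw [← h3] at h2
    exact_mod_cast h2
  have h1 := hprod d hd0
  rw [← Nat.insert_self_properDivisors hd0.ne', Finset.prod_insert Nat.self_notMem_properDivisors] at h1
  set W := ∏ i ∈ d.properDivisors, (Polynomial.cyclotomic i ℤ).eval (q : ℤ) with hW
  have hcast : (q : ℤ) ^ d - 1 = ((q ^ d - 1 : ℕ) : ℤ) := by
    rw [Nat.cast_sub (Nat.one_le_pow _ _ (by omega))]
    simp
  have hab : q ^ d - 1 = ((Polynomial.cyclotomic d ℤ).eval (q : ℤ)).natAbs * W.natAbs := by
    rw [← Int.natAbs_mul, h1, hcast, Int.natAbs_natCast]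
  have hpos : q ^ d - 1 ≠ 0 := by
    have : 1 < q ^ d := Nat.one_lt_pow hd0.ne' (by omega)
    omega
  have hnr : ¬ r ∣ W.natAbs := by
    intro h
    have h2 : (r : ℤ) ∣ W := Int.natCast_dvd.2 h
    have hrp : Prime (r : ℤ) := Nat.prime_iff_prime_int.1 hr.out
    obtain ⟨e, he, h3⟩ := (Prime.dvd_finsetProd_iff hrp _).1 h2
    have he0 : 0 < e := Nat.pos_of_mem_properDivisors he
    have h4 := hdvd e he0 h3
    have h5 := Nat.le_of_dvd he0 h4
    have h6 := (Nat.mem_properDivisors.1 he).2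
    omega
  have hA : ((Polynomial.cyclotomic d ℤ).eval (q : ℤ)).natAbs ≠ 0 := by
    intro h
    rw [h, zero_mul] at hab
    exact hpos hab
  have hB : W.natAbs ≠ 0 := by
    intro h
    rw [h, mul_zero] at hab
    exact hpos hab
  rw [hab, padicValNat.mul hA hB, padicValNat.eq_zero_of_not_dvd hnr, add_zero]

/-- Order of the general linear group up to the power of `q`. -/
lemma prod_gl (q : ℕ) (hq : 1 ≤ q) (n : ℕ) :
    (∏ i : Fin n, (q ^ n - q ^ (i : ℕ))) = q ^ (n.choose 2) * ∏ j ∈ range n, (q ^ (j + 1) - 1) := by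
  rw [Fin.prod_univ_eq_prod_range (fun i => q ^ n - q ^ i) n]
  induction n with
  | zero => simp
  | succ m ih =>
    rw [Finset.prod_range_succ']
    have h1 : ∏ k ∈ Finset.range m, (q ^ (m + 1) - q ^ (k + 1)) = q ^ m * ∏ k ∈ Finset.range m, (q ^ m - q ^ k) := by
      have : ∀ k ∈ Finset.range m, q ^ (m + 1) - q ^ (k + 1) = q * (q ^ m - q ^ k) := by
        intro k _
        rw [pow_succ q m, pow_succ q k, ← Nat.mul_sub_right_distrib, mul_comm]
      rw [Finset.prod_congr rfl this, Finset.prod_mul_distrib, Finset.prod_const, Finset.card_range]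
    rw [h1, ih, Finset.prod_range_succ _ m]
    have h3 : (m + 1).choose 2 = m + m.choose 2 := by
      rw [Nat.choose_succ_succ' m 1, Nat.choose_one_right]
    rw [h3, pow_zero]
    ring

/-- The valuation of the main product. -/
lemma factorization_prod (hq : 2 ≤ q) (hrq : ¬ r ∣ q) {n : ℕ} (hn : n < r) :
    (∏ j ∈ range n, (q ^ (j + 1) - 1)).factorization r =
      (n / orderOf (q : ZMod r)) * padicValNat r (q ^ orderOf (q : ZMod r) - 1) := by
  have hne : ∀ j ∈ range n, q ^ (j + 1) - 1 ≠ 0 := by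
    intro j _
    have : 1 < q ^ (j + 1) := Nat.one_lt_pow (by omega) (by omega)
    omega
  rw [Nat.factorization_prod hne, Finsupp.finsetSum_apply]
  have h1 : ∀ j ∈ range n, (q ^ (j + 1) - 1).factorization r =
      if orderOf (q : ZMod r) ∣ j + 1 then padicValNat r (q ^ orderOf (q : ZMod r) - 1) else 0 := by
    intro j hj
    rw [Nat.factorization_def _ hr.out, val_pow_sub_one hq hrq (by omega) (by have := mem_range.1 hj; omega)]
  rw [Finset.sum_congr rfl h1, Finset.sum_ite, Finset.sum_const_zero, add_zero, Finset.sum_const, Nat.card_multiples, smul_eq_mul]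

/-- The valuation of the order of `GL_n(q)`. -/
lemma factorization_gl (hq : 2 ≤ q) (hrq : ¬ r ∣ q) {n : ℕ} (hn : n < r) :
    (∏ i : Fin n, (q ^ n - q ^ (i : ℕ))).factorization r =
      (n / orderOf (q : ZMod r)) * padicValNat r ((Polynomial.cyclotomic (orderOf (q : ZMod r)) ℤ).eval (q : ℤ)).natAbs := by
  rw [prod_gl q (by omega), Nat.factorization_mul (by positivity), Finsupp.add_apply, Nat.factorization_pow, factorization_prod hq hrq hn,
    val_cyclotomic hq hrq]
  · simp [Nat.factorization_eq_zero_of_not_dvd hrq]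
  · rw [Finset.prod_ne_zero_iff]
    intro j _
    have : 1 < q ^ (j + 1) := Nat.one_lt_pow (by omega) (by omega)
    omega

end Cfsg.Agent.Lib.SylowLarge.Val
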